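import Groth.Prelude.Def_ModelsG
import Groth.Agent.Dix.CastMain
import Groth.Agent.Dix.BlowIrrMain
import Groth.Agent.Dix.SurfBasic
import Groth.Agent.Dix.FibreMin
import Groth.Agent.Dix.GenFibre
import Groth.Agent.Dix.QFSurfaceAlg
import Groth.Agent.Dix.BirIso
import Groth.Agent.S1682

/-!
# The contraction step on arithmetic surfaces over a discrete valuation ring

* `exists_contraction`: an exceptional curve of the first kind among the vertical prime divisors of an arithmetic
  surface can be contracted, the target being again an arithmetic surface.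
* `isPullback_comp`: the contraction induces an isomorphism on generic fibres.
* `ncard_minSet_lt`: the number of generic points of the closed fibre drops.
-/

set_option autoImplicit false
universe u

open CategoryTheory CategoryTheory.Limits AlgebraicGeometry TopologicalSpace

namespace Groth.Agent.Models.H52.ContrStep

open Groth.Agent.Dix Groth.Agent.Dix.PointIdeal Groth.Agent.Dix.FibreMin

variable {R : Type u} [CommRing R] [IsDomain R] [IsDiscreteValuationRing R]

section VertComp

variable {X : Over (Spec (CommRingCat.of R))} (Γ : ArSurf.VertComp R X)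

/-- A vertical prime divisor has at least two points. -/
theorem exists_ne : ∃ a b : Γ.curve.left, a ≠ b := by
  by_contra hcon
  push Not at hcon
  have h1 : Subsingleton Γ.curve.left := ⟨hcon⟩
  have h2 := Γ.dim_eq
  rw [CurvesB.DimPts.krullDim_eq] at h2
  have h3 : Order.krullDim Γ.curve.left ≤ 0 := Order.krullDim_nonpos_of_subsingleton
  rw [h2] at h3
  exact absurd h3 (by decide)

/-- A vertical prime divisor lies over the closed point. -/
theorem hom_apply (e : Γ.curve.left) : X.hom (Γ.ι e) = IsLocalRing.closedPoint R := by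
  have h1 : X.hom (Γ.ι e) = (Γ.ι ≫ X.hom) e := rfl
  rw [h1, Γ.w]
  have h2 : (Γ.curve.hom ≫ Spec.map (CommRingCat.ofHom (IsLocalRing.residue R))) e =
      PrimeSpectrum.comap (IsLocalRing.residue R) (Γ.curve.hom e) := rfl
  rw [h2]
  apply PrimeSpectrum.ext
  have h3 : (Γ.curve.hom e).asIdeal = ⊥ := by
    have h4 : ((Γ.curve.hom e).asIdeal : Ideal (IsLocalRing.ResidueField R)).IsPrime :=
      (Γ.curve.hom e).isPrime
    exact (Ideal.eq_bot_or_top (Γ.curve.hom e).asIdeal).resolve_right h4.ne_top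
  rw [PrimeSpectrum.comap_asIdeal, h3, ← RingHom.ker_eq_comap_bot]
  exact IsLocalRing.ker_residue

/-- The range of a vertical prime divisor is the closure of its generic point. -/
theorem range_eq_closure : Set.range Γ.ι = closure {Γ.ι (genericPoint Γ.curve.left)} := by
  have h1 := (genericPoint_spec Γ.curve.left).image Γ.ι.continuous
  rw [Set.image_univ] at h1
  rw [← Γ.ι.isClosedEmbedding.isClosed_range.closure_eq]
  exact h1.def.symm

end VertComp

/-- The generic points of the closed fibre. -/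
def minSet (X : Over (Spec (CommRingCat.of R))) : Set X.left :=
  {x | X.hom x = IsLocalRing.closedPoint R ∧ IsMinPt X.hom x}

theorem minSet_finite (X : Over (Spec (CommRingCat.of R))) [LocallyOfFiniteType X.hom] [QuasiCompact X.hom] :
    (minSet X).Finite :=
  finite_isMinPt X.hom {IsLocalRing.closedPoint R} (Set.finite_singleton _)

/-- A nonclosed point of the closed fibre of an arithmetic surface is a generic point of the closed fibre. -/
theorem isMinPt_of_ne {X : Over (Spec (CommRingCat.of R))} (hX : ArSurf.IsArithSurface R X) {x x' : X.left}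
    (h : x' ⤳ x) (hne : x' ≠ x) (hx' : X.hom x' = IsLocalRing.closedPoint R) : x' ∈ minSet X := by
  have hint := hX.2.1
  have hflat := hX.2.2.2.1
  refine ⟨hx', fun z hz hpz => ?_⟩
  by_contra hzne
  refine QFSurfaceAlg.false_of_chain hX.2.2.1.le ((genericPoint_spec X.left).specializes trivial) hz h ?_ hzne hne
  intro h4
  have h5 := GenFibre.asIdeal_hom_genericPoint X
  have h6 : genericPoint X.left = z := h4
  rw [h6, hpz, hx'] at h5
  exact IsDiscreteValuationRing.not_a_field R h5

theorem genPt_mem_minSet {X : Over (Spec (CommRingCat.of R))} (hX : ArSurf.IsArithSurface R X)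
    (Γ : ArSurf.VertComp R X) : Γ.ι (genericPoint Γ.curve.left) ∈ minSet X := by
  obtain ⟨a, b, hab⟩ := exists_ne Γ
  obtain ⟨c, hc⟩ : ∃ c, genericPoint Γ.curve.left ≠ c := by
    by_cases h : genericPoint Γ.curve.left = a
    · exact ⟨b, by rw [h]; exact hab⟩
    · exact ⟨a, h⟩
  refine isMinPt_of_ne hX (x := Γ.ι c) ?_ ?_ (hom_apply Γ _)
  · exact ((genericPoint_spec Γ.curve.left).specializes trivial).map Γ.ι.continuous
  · intro h
    exact hc (Γ.ι.isClosedEmbedding.injective h)

/-- Castelnuovo: contraction of an exceptional curve of the first kind. -/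
theorem exists_contraction {X : Over (Spec (CommRingCat.of R))} (hX : ArSurf.IsArithSurface R X)
    (Γ : ArSurf.VertComp R X) (hE : _root_.Models.IsExcCurve Γ.ι) :
    ∃ (Y : Over (Spec (CommRingCat.of R))) (b : X ⟶ Y), ArSurf.IsArithSurface R Y ∧
      _root_.Models.IsContractionOf Γ.ι b.left := by
  obtain ⟨heff, k, hk, e, ⟨φ⟩⟩ := hE
  have hker : (e.hom ≫ Γ.ι).ker = Γ.ι.ker := Scheme.Hom.ker_comp_of_isIso e.hom Γ.ι
  have heff' : BlowUp.IsEffCartierIdeal (e.hom ≫ Γ.ι).ker := by rw [hker]; exact heff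
  have hdeg : ArSurf.curveDeg k (CohB1.ProjSpace 1 k)
      ((Scheme.Modules.pullback (e.hom ≫ Γ.ι)).obj (ClSub.idealMod (e.hom ≫ Γ.ι).ker)) = 1 := by
    rw [hker, Cast0.curveDeg_congr k φ]
    exact Cast2.wp2_deg k 1
  obtain ⟨Y, f, y, hy, hY, h1, h2, h3⟩ := CastMain.wp5 R X hX k (e.hom ≫ Γ.ι) heff' hdeg
  have hs : Function.Surjective e.hom := e.hom.homeomorph.surjective
  have h1' : Set.range (Γ.ι ≫ f.left) = {y} := by
    rw [← h1, Category.assoc]
    exact (hs.range_comp (Γ.ι ≫ f.left)).symm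
  have h2' : f.left ⁻¹' {y} = Set.range Γ.ι := by
    have h4 : Set.range (e.hom ≫ Γ.ι) = Set.range Γ.ι := hs.range_comp Γ.ι
    rw [h4] at h2
    have h5 : (f.left ⁻¹' {y})ᶜ = (Set.range Γ.ι)ᶜ := h2
    exact compl_injective h5
  have hXi := hX.2.1
  have hYi := hY.2.1
  have hp := SurfBasic.isProper_left hX hY f
  have hXn := SurfBasic.isNoetherian hX
  have hYn := SurfBasic.isNoetherian hY
  have hirr : IsPreirreducible (f.left ⁻¹' {y}) := by
    rw [h2', range_eq_closure]
    exact isPreirreducible_singleton.closure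
  have hbig : ∃ x x' : X.left, x ≠ x' ∧ f.left x = y ∧ f.left x' = y := by
    obtain ⟨a, b, hab⟩ := exists_ne Γ
    refine ⟨Γ.ι a, Γ.ι b, fun h => hab (Γ.ι.isClosedEmbedding.injective h), ?_, ?_⟩
    · have : (Γ.ι ≫ f.left) a ∈ Set.range (Γ.ι ≫ f.left) := ⟨a, rfl⟩
      rw [h1'] at this
      exact this
    · have : (Γ.ι ≫ f.left) b ∈ Set.range (Γ.ι ≫ f.left) := ⟨b, rfl⟩
      rw [h1'] at this
      exact this
  refine ⟨Y, f, hY, hYn, hp, y, hy, h1', hY.1 y, ?_, ?_⟩
  · exact (BlowIrr.coheight_eq_two_iff y).mpr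
      (BlowIrr.coheight_y f.left y hy hY.1 (SurfBasic.coheight_le hY y) (SurfBasic.genericPoint_ne hY y hy) h3 hbig)
  · exact BlowIrr.main f.left y hy hX.1 hY.1 (SurfBasic.coheight_le hX) (SurfBasic.coheight_le hY y)
      (SurfBasic.genericPoint_ne hY y hy) h3 hirr hbig

/-- The blow-up of a closed point is an isomorphism off the point. -/
theorem isIso_restrict_of_isBlowUp {V W : Scheme.{u}} (π : W ⟶ V) (x : V) (hx : IsClosed ({x} : Set V))
    (hπ : BlowUp.IsBlowUp π (pt x hx)) : IsIso (π ∣_ (⟨{x}ᶜ, hx.isOpen_compl⟩ : V.Opens)) := by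
  have h1 := Groth.Agent.S1682.result _ π hπ
  have h2 : (pt x hx).support.compl = (⟨{x}ᶜ, hx.isOpen_compl⟩ : V.Opens) := by
    ext z
    change z ∉ (pt x hx).support ↔ z ∉ ({x} : Set V)
    rw [mem_support_pt]
    rfl
  rw [← h2]
  exact h1

/-- If `b` is an isomorphism over an open `U`, then the base change of `b` along a morphism with values in `U` is an
isomorphism. -/
theorem isIso_of_isPullback {C C' X Y : Scheme.{u}} {g : C ⟶ X} {h : C ⟶ C'} {b : X ⟶ Y} {g' : C' ⟶ Y}
    (H : IsPullback g h b g') (U : Y.Opens) (hU : Set.range g' ⊆ (U : Set Y)) [IsIso (b ∣_ U)] : IsIso h := by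
  have hr : Set.range g' ⊆ Set.range U.ι := by simpa using hU
  let j' := IsOpenImmersion.lift U.ι g' hr
  have hj' : j' ≫ U.ι = g' := IsOpenImmersion.lift_fac _ _ _
  rw [← hj'] at H
  have h3 : IsPullback (b ∣_ U) ((b ⁻¹ᵁ U).ι) U.ι b := isPullback_morphismRestrict b U
  have h4 : IsPullback (h3.flip.lift g (h ≫ j') (by rw [Category.assoc]; exact H.w)) h (b ∣_ U) j' := by
    refine IsPullback.of_right (h₁₂ := (b ⁻¹ᵁ U).ι) (h₂₂ := U.ι) (v₁₃ := b) ?_ (h3.flip.lift_snd _ _ _) h3.flip
    rw [h3.flip.lift_fst]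
    exact H
  exact h4.isIso_snd_of_isIso

/-- A morphism over a base which is an isomorphism over an open `U` of the target containing the preimage of `t`
preserves pullbacks along `t`. -/
theorem isPullback_comp_of_isIso {C X Y S T : Scheme.{u}} {p : X ⟶ S} {q : Y ⟶ S} {t : T ⟶ S} {g : C ⟶ X} {f : C ⟶ T}
    (b : X ⟶ Y) (hb : b ≫ q = p) (U : Y.Opens) (hU : ∀ y : Y, q y ∈ Set.range t → y ∈ U) [IsIso (b ∣_ U)]
    (hg : IsPullback g f p t) : IsPullback (g ≫ b) f q t := by
  have hw : (g ≫ b) ≫ q = f ≫ t := by rw [Category.assoc, hb, hg.w]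
  let h : C ⟶ pullback q t := pullback.lift (g ≫ b) f hw
  have h1 : IsPullback g h b (pullback.fst q t) := by
    refine IsPullback.of_bot (h₂₁ := pullback.fst q t) (v₂₁ := pullback.snd q t) (v₂₂ := q)
      (h₃₁ := t) ?_ (pullback.lift_fst _ _ _).symm (IsPullback.of_hasPullback q t)
    rw [show h ≫ pullback.snd q t = f from pullback.lift_snd _ _ _, hb]
    exact hg
  have h2 : IsIso h := by
    refine isIso_of_isPullback h1 U ?_
    rintro _ ⟨z, rfl⟩
    apply hU
    refine ⟨pullback.snd q t z, ?_⟩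
    have := (IsPullback.of_hasPullback q t).w
    exact congr($this z).symm
  refine IsPullback.of_iso (IsPullback.of_hasPullback q t) (asIso h).symm (Iso.refl _) (Iso.refl _) (Iso.refl _) ?_ ?_ ?_ ?_
  · rw [Iso.refl_hom, Category.comp_id]
    change _ = inv h ≫ g ≫ b
    rw [IsIso.eq_inv_comp]
    exact pullback.lift_fst _ _ _
  · rw [Iso.refl_hom, Category.comp_id]
    change _ = inv h ≫ f
    rw [IsIso.eq_inv_comp]
    exact pullback.lift_snd _ _ _
  · simp
  · simp

/-- The image of the generic fibre inclusion avoids the closed fibre. -/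
theorem ne_closedPoint_of_mem_range {s : Spec (CommRingCat.of R)}
    (hs : s ∈ Set.range (Spec.map (CommRingCat.ofHom (algebraMap R (FractionRing R))))) :
    s ≠ IsLocalRing.closedPoint R := by
  obtain ⟨z, rfl⟩ := hs
  intro h
  have h1 := GenFibre.asIdeal_genPt R z
  have h2 : (Neron.genPt R z).asIdeal = (IsLocalRing.closedPoint R).asIdeal := congrArg PrimeSpectrum.asIdeal h
  rw [h1] at h2
  exact IsDiscreteValuationRing.not_a_field R h2.symm

/-- The contraction of a vertical prime divisor is an isomorphism on generic fibres. -/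
theorem isPullback_comp {X Y : Over (Spec (CommRingCat.of R))} (Γ : ArSurf.VertComp R X) (b : X ⟶ Y)
    (hb : _root_.Models.IsContractionOf Γ.ι b.left) {C : Scheme.{u}} {g : C ⟶ X.left}
    {f : C ⟶ Spec (CommRingCat.of (FractionRing R))}
    (hg : IsPullback g f X.hom (Spec.map (CommRingCat.ofHom (algebraMap R (FractionRing R))))) :
    IsPullback (g ≫ b.left) f Y.hom (Spec.map (CommRingCat.ofHom (algebraMap R (FractionRing R)))) := by
  obtain ⟨-, -, y, hy, h1, -, -, h2⟩ := hb
  have h3 := isIso_restrict_of_isBlowUp b.left y hy h2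
  refine isPullback_comp_of_isIso b.left (Over.w b) (⟨{y}ᶜ, hy.isOpen_compl⟩ : Y.left.Opens) ?_ hg
  rintro z hz (rfl : z = y)
  apply ne_closedPoint_of_mem_range hz
  obtain ⟨a, -, -⟩ := exists_ne Γ
  have h4 : (Γ.ι ≫ b.left) a = z := by
    have : (Γ.ι ≫ b.left) a ∈ Set.range (Γ.ι ≫ b.left).base := ⟨a, rfl⟩
    rw [h1] at this
    exact this
  rw [← h4]
  have h5 : Y.hom ((Γ.ι ≫ b.left) a) = X.hom (Γ.ι a) := congr($(Over.w b) (Γ.ι a))
  rw [h5, hom_apply]

/-- A contraction decreases the number of generic points of the closed fibre. -/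
theorem ncard_minSet_lt {X Y : Over (Spec (CommRingCat.of R))} (hX : ArSurf.IsArithSurface R X)
    (hY : ArSurf.IsArithSurface R Y) (Γ : ArSurf.VertComp R X) (b : X ⟶ Y)
    (hb : _root_.Models.IsContractionOf Γ.ι b.left) : (minSet Y).ncard < (minSet X).ncard := by
  have hXp := SurfBasic.isProper hX
  have hYp := SurfBasic.isProper hY
  have hXi := hX.2.1
  have hYi := hY.2.1
  have hYn := SurfBasic.isNoetherian hY
  obtain ⟨-, hbp, y, hy, h1, hreg, hdim, h2⟩ := hb
  have h3 := isIso_restrict_of_isBlowUp b.left y hy h2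
  have hgen : b.left (genericPoint X.left) = genericPoint Y.left :=
    BirIso.map_genericPoint b.left _ h3
      (show genericPoint Y.left ∈ ({y}ᶜ : Set Y.left) from SurfBasic.genericPoint_ne hY y hy)
  have hsurj : Function.Surjective b.left := by
    intro z
    have h4 : IsClosed (Set.range b.left) := b.left.isClosedMap.isClosed_range
    exact ((genericPoint_spec Y.left).specializes trivial).mem_closed h4 ⟨_, hgen⟩
  have hbw : ∀ x, Y.hom (b.left x) = X.hom x := fun x => congr($(Over.w b) x)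
  have hfin := minSet_finite X
  obtain ⟨ϖ, hϖ⟩ := IsDiscreteValuationRing.exists_irreducible R
  have hsub : minSet Y ⊆ b.left '' (minSet X \ {Γ.ι (genericPoint Γ.curve.left)}) := by
    rintro z ⟨hz1, hz2⟩
    obtain ⟨x, rfl⟩ := hsurj z
    obtain ⟨w, hw1, hw2, hw3⟩ := exists_isMinPt X.hom x
    have hgw : b.left w = b.left x := hz2 _ (hw1.map b.left.continuous) (by rw [hbw, hbw, hw2])
    refine ⟨w, ⟨⟨by rw [hw2, ← hbw]; exact hz1, hw3⟩, ?_⟩, hgw⟩
    rintro rfl
    have h5 : (Γ.ι ≫ b.left) (genericPoint Γ.curve.left) = y := by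
      have : (Γ.ι ≫ b.left) (genericPoint Γ.curve.left) ∈ Set.range (Γ.ι ≫ b.left).base := ⟨_, rfl⟩
      rw [h1] at this
      exact this
    have h6 : b.left x = y := by rw [← hgw]; exact h5
    have h7 := ringKrullDim_stalk_le_one (R := CommRingCat.of R) Y.hom _ hz2 ϖ hϖ.ne_zero (by
      rw [hz1]
      exact (IsLocalRing.mem_maximalIdeal _).mpr hϖ.not_isUnit)
    rw [h6, hdim] at h7
    exact absurd h7 (by decide)
  calc (minSet Y).ncard ≤ _ := Set.ncard_le_ncard hsub (hfin.sdiff.image _)
    _ ≤ _ := Set.ncard_image_le hfin.sdiff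
    _ < _ := Set.ncard_sdiff_singleton_lt_of_mem (genPt_mem_minSet hX Γ) hfin

/-- **Existence of a minimal model below an arithmetic surface.** -/
theorem exists_minimal {C : Scheme.{u}} (f : C ⟶ Spec (CommRingCat.of (FractionRing R))) :
    ∀ (n : ℕ) (Y : Over (Spec (CommRingCat.of R))) (_ : ArSurf.IsArithSurface R Y) (g : C ⟶ Y.left)
      (_ : IsPullback g f Y.hom (Spec.map (CommRingCat.ofHom (algebraMap R (FractionRing R)))))
      (_ : (minSet Y).ncard = n),
      ∃ (X : Over (Spec (CommRingCat.of R))) (gX : C ⟶ X.left) (b : Y ⟶ X), ArSurf.IsArithSurface R X ∧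
        (∀ Γ : ArSurf.VertComp R X, ¬ _root_.Models.IsExcCurve Γ.ι) ∧
        IsPullback gX f X.hom (Spec.map (CommRingCat.ofHom (algebraMap R (FractionRing R)))) ∧
        g ≫ b.left = gX ∧ _root_.Models.IsContractionSeq b.left := by
  intro n
  induction n using Nat.strong_induction_on with
  | _ n ih =>
  intro Y hY g hg hn
  by_cases hmin : ∀ Γ : ArSurf.VertComp R Y, ¬ _root_.Models.IsExcCurve Γ.ι
  · exact ⟨Y, g, 𝟙 Y, hY, hmin, hg, Category.comp_id _, .iso (Iso.refl Y.left)⟩
  · push Not at hmin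
    obtain ⟨Γ, hΓ⟩ := hmin
    obtain ⟨Z, b, hZ, hb⟩ := exists_contraction hY Γ hΓ
    obtain ⟨X, gX, r, hX, hXmin, hgX, hgr, hr⟩ := ih _ (hn ▸ ncard_minSet_lt hY hZ Γ b hb) Z hZ (g ≫ b.left)
      (isPullback_comp Γ b hb hg) rfl
    refine ⟨X, gX, b ≫ r, hX, hXmin, hgX, ?_, ?_⟩
    · rw [Over.comp_left, ← Category.assoc, hgr]
    · rw [Over.comp_left]
      exact .step Γ.ι b.left r.left Γ.isClosedImmersion hΓ hb hr

/-- The statement for models, given the bridge. -/
theorem exists_minimalModel (C Y : Scheme.{u}) (f : C ⟶ Spec (CommRingCat.of (FractionRing R)))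
    (q : Y ⟶ Spec (CommRingCat.of R)) (hY : ArSurf.IsArithSurface R (Over.mk q)) (gY : C ⟶ Y)
    (hgY : IsPullback gY f q (Spec.map (CommRingCat.ofHom (algebraMap R (FractionRing R))))) :
    ∃ (X : Scheme.{u}) (p : X ⟶ Spec (CommRingCat.of R)) (gX : C ⟶ X) (b : Y ⟶ X),
      ArSurf.IsArithSurface R (Over.mk p) ∧ _root_.Models.IsMinimalModel R X p C f ∧
      IsPullback gX f p (Spec.map (CommRingCat.ofHom (algebraMap R (FractionRing R)))) ∧
      b ≫ p = q ∧ gY ≫ b = gX ∧ _root_.Models.IsContractionSeq b := by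
  obtain ⟨X, gX, b, hX, hmin, hg, h1, h2⟩ := exists_minimal f _ (Over.mk q) hY gY hgY rfl
  have hXp := SurfBasic.isProper hX
  have hX' : ArSurf.IsArithSurface R (Over.mk X.hom) := hX
  refine ⟨X.left, X.hom, gX, b.left, hX', ⟨⟨⟨hX.2.2.2.1, inferInstance, inferInstance, gX, hg⟩, hXp, hX.1⟩, ?_⟩,
    hg, Over.w b, h1, h2⟩
  intro Γ
  exact hmin Γ

end Groth.Agent.Models.H52.ContrStep
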